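import Cfsg.Agent.ZStarApps.Hyp
import Cfsg.Agent.S3183
import Cfsg.Agent.Constrained.Basic
import Cfsg.Agent.Eq.Def_Solvable
import Cfsg.Agent.Eq.Def_CaseTheorems
import Mathlib.GroupTheory.SpecificGroups.Cyclic

/-!
A central involution of a characteristic cyclic subgroup is isolated when Sylow 2-intersections are
central.
-/

set_option autoImplicit false

namespace CfsgLib.ZStarApps

open Cfsg

universe u

/-- The involution of a characteristic cyclic subgroup of `S` is fixed by every element normalising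
`S`. -/
theorem conj_eq_of_mem_normalizer {G : Type*} [Group G] (S : Subgroup G) [Finite ↥S] (C : Subgroup ↥S)
    [IsCyclic ↥C] (hCh : C.Characteristic) {c : ↥S} (hc : c ∈ C) (hc2 : orderOf c = 2) {g : G}
    (hg : g ∈ Subgroup.normalizer (S : Set G)) : g * (c : G) * g⁻¹ = c := by
  classical
  set e := Subgroup.normalizerMonoidHom S ⟨g, hg⟩ with he
  have hmap : e c ∈ C := by
    have := Subgroup.characteristic_iff_map_eq.mp hCh e
    rw [← this]
    exact ⟨c, hc, rfl⟩
  haveI := Fintype.ofFinite ↥C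
  have h2 : ({a : ↥C | orderOf a = 2} : Set ↥C).ncard = 1 := by
    have h := IsCyclic.card_orderOf_eq_totient (α := ↥C) (d := 2) (by
      rw [← hc2, ← Subgroup.orderOf_mk c hc, ← Nat.card_eq_fintype_card]
      exact orderOf_dvd_natCard _)
    rw [Set.ncard_eq_toFinset_card']
    simpa using h
  obtain ⟨a, ha⟩ := Set.ncard_eq_one.mp h2
  have h1 : (⟨c, hc⟩ : ↥C) ∈ ({a : ↥C | orderOf a = 2} : Set ↥C) := by
    show orderOf _ = 2
    rw [Subgroup.orderOf_mk, hc2]
  have h3 : (⟨e c, hmap⟩ : ↥C) ∈ ({a : ↥C | orderOf a = 2} : Set ↥C) := by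
    show orderOf _ = 2
    rw [Subgroup.orderOf_mk, MulEquiv.orderOf_eq, hc2]
  rw [ha, Set.mem_singleton_iff] at h1 h3
  have h4 : e c = c := congrArg Subtype.val (h3.trans h1.symm)
  have h5 := congrArg (Subtype.val : ↥S → G) h4
  rw [he] at h5
  simpa using h5


/-- The involution of a characteristic cyclic subgroup is central modulo the odd core. -/
theorem conj_mk_eq_of_central_intersection (hZ : ZStarShape.{u}) {G : Type u} [Group G] [Finite G]
    (hCI : ∀ S T : Sylow 2 G, S ≠ T → ∃ U : Sylow 2 G,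
      (S : Subgroup G) ⊓ (T : Subgroup G) ≤ (Subgroup.center ↥(U : Subgroup G)).map (U : Subgroup G).subtype)
    (S : Sylow 2 G) (C : Subgroup ↥(S : Subgroup G)) (hCc : IsCyclic ↥C) (hCh : C.Characteristic)
    (c : ↥(S : Subgroup G)) (hc : c ∈ C) (hc2 : orderOf c = 2) (g : G) :
    (QuotientGroup.mk (s := oddCore G) (g * (c : G) * g⁻¹)) = QuotientGroup.mk (s := oddCore G) (c : G) := by
  haveI : Fact (Nat.Prime 2) := ⟨Nat.prime_two⟩
  haveI := hCc
  have hfix : ∀ n ∈ Subgroup.normalizer ((S : Subgroup G) : Set G), n * (c : G) * n⁻¹ = c :=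
    fun n hn => conj_eq_of_mem_normalizer (S : Subgroup G) C hCh hc hc2 hn
  have hcen : (c : G) ∈ Subgroup.centralizer ((S : Subgroup G) : Set G) :=
    Subgroup.mem_centralizer_iff.mpr fun s hs =>
      mul_inv_eq_iff_eq_mul.mp (hfix s (Subgroup.le_normalizer hs))
  have hc2' : orderOf (c : G) = 2 := by rw [Subgroup.orderOf_coe, hc2]
  have hiso : ∀ x : G, x * (c : G) * x⁻¹ ∈ S → x * (c : G) * x⁻¹ = c := by
    intro x hx
    by_cases hT : x⁻¹ • S = S
    · exact hfix x (by simpa using inv_mem (Sylow.smul_eq_iff_mem_normalizer.mp hT))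
    · have hcT : (c : G) ∈ ((x⁻¹ • S : Sylow 2 G) : Subgroup G) := by
        rw [Sylow.coe_subgroup_smul, Subgroup.mem_pointwise_smul_iff_inv_smul_mem]
        simp
        exact hx
      obtain ⟨w, hw, hwc⟩ :=
        ((Cfsg.Agent.S3183.result hCI S).2 (x⁻¹ • S) hT ⟨c.2, hcT⟩).2
      have hxc : (x⁻¹)⁻¹ * (c : G) * x⁻¹ ∈ Subgroup.centralizer ((S : Subgroup G) : Set G) := by
        rw [inv_inv, Subgroup.mem_centralizer_iff]
        intro s hs
        have hsT : x⁻¹ * s * x ∈ ((x⁻¹ • S : Sylow 2 G) : Subgroup G) := by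
          rw [Sylow.coe_subgroup_smul, Subgroup.mem_pointwise_smul_iff_inv_smul_mem]
          simp [mul_assoc]
          exact hs
        have h : x⁻¹ * s * x * (w : G) = (w : G) * (x⁻¹ * s * x) :=
          congrArg Subtype.val (Subgroup.mem_center_iff.mp hw ⟨_, hsT⟩)
        rw [show (w : G) = c from hwc] at h
        calc s * (x * c * x⁻¹) = x * (x⁻¹ * s * x * c) * x⁻¹ := by group
          _ = x * (c * (x⁻¹ * s * x)) * x⁻¹ := by rw [h]
          _ = x * c * x⁻¹ * s := by group
      obtain ⟨m, hm, hmeq⟩ := S.conj_eq_normalizer_conj_of_mem_centralizer (c : G) x⁻¹ hcen hxc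
      rw [inv_inv] at hmeq
      rw [hmeq]
      simpa using hfix m⁻¹ (inv_mem hm)
  obtain ⟨N, hN, hNodd, hNc⟩ := hZ G S (c : G) hc2' c.2 hiso
  have hle : N ≤ oddCore G := CfsgLib.Constrained.le_pPrimeCore hN (Nat.coprime_two_right.mpr hNodd)
  haveI := hN
  rw [QuotientGroup.eq]
  refine hle ?_
  have h := hN.conj_mem _ (inv_mem (inv_mem (hNc g))) (c : G)⁻¹
  have h2 : (g * (c : G) * g⁻¹)⁻¹ * (c : G) =
      (g * ((c : G)⁻¹ * g⁻¹ * (c : G))) := by group
  rw [h2]
  have h3 := hN.conj_mem _ (hNc g⁻¹) g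
  have hci : (c : G)⁻¹ = c := by
    have h4 := pow_orderOf_eq_one (c : G)
    rw [hc2', pow_two] at h4
    exact inv_eq_of_mul_eq_one_right h4
  rw [hci]
  rw [hci] at h3
  simpa [mul_assoc] using h3

end CfsgLib.ZStarApps
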