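import Cfsg.Agent.ZStarApps.Hyp
import Cfsg.Agent.Coprime.Basic
import Cfsg.Agent.Constrained.Basic
import Cfsg.Agent.Eq.Def_Solvable
import Mathlib.GroupTheory.SchurZassenhaus

/-!
Automorphisms of 2-power order fixing an abelian Sylow 2-subgroup pointwise are inner
(for trivial centre and trivial core), given the Z*-theorem.
-/

set_option autoImplicit false

namespace CfsgLib.ZStarApps

open Cfsg

universe u

theorem exists_conj_eq_of_fix_sylow (hZ : ZStarShape.{u}) {G : Type u} [Group G] [Finite G]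
    (hc : Subgroup.center G = ⊥) (hcore : pPrimeCore 2 G = ⊥) (P : Sylow 2 G)
    (hab : IsMulCommutative (P : Subgroup G)) (α : MulAut G) (h2 : ∃ j : ℕ, orderOf α = 2 ^ j)
    (hfix : ∀ x ∈ (P : Subgroup G), α x = x) : ∃ g : G, ∀ x : G, α x = g * x * g⁻¹ := by
  classical
  have hinj : Function.Injective (MulAut.conj : G →* MulAut G) := by
    rw [injective_iff_map_eq_one]
    intro g hg
    rw [← Subgroup.mem_bot, ← hc, Subgroup.mem_center_iff]
    intro y
    have h : g * y * g⁻¹ = y := by simpa using congrArg (fun f : MulAut G => f y) hg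
    exact (mul_inv_eq_iff_eq_mul.mp h).symm
  have hconjα : ∀ (β : MulAut G) (g : G),
      β * MulAut.conj g * β⁻¹ = MulAut.conj (β g) := by
    intro β g
    ext y
    simp [map_mul, map_inv]
  set I : Subgroup (MulAut G) := (MulAut.conj : G →* MulAut G).range with hI
  haveI hIn : I.Normal := ⟨by
    rintro _ ⟨g, rfl⟩ β
    exact ⟨β g, (hconjα β g).symm⟩⟩
  set H : Subgroup (MulAut G) := I ⊔ Subgroup.zpowers α with hH
  have hαH : α ∈ H := Subgroup.mem_sup_right (Subgroup.mem_zpowers α)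
  have hdec : ∀ h ∈ H, ∃ i ∈ I, ∃ j : ℤ, h = i * α ^ j := by
    intro h hh
    obtain ⟨i, hi, _, ⟨j, rfl⟩, rfl⟩ := Subgroup.mem_sup_of_normal_left.mp hh
    exact ⟨i, hi, j, rfl⟩
  obtain ⟨j₀, hj₀⟩ := h2
  -- the subgroup `T` of `H` generated by the image of `P` and by `α`
  set IP : Subgroup (MulAut G) := (P : Subgroup G).map (MulAut.conj : G →* MulAut G) with hIP
  set T : Subgroup (MulAut G) := IP ⊔ Subgroup.zpowers α with hT
  have hαP : ∀ q ∈ IP, α * q = q * α := by
    rintro _ ⟨x, hx, rfl⟩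
    have h := hconjα α x
    rw [hfix x hx, mul_inv_eq_iff_eq_mul] at h
    exact h
  have hTcomm : IsMulCommutative ↥T := by
    have hgen : ∀ a ∈ ((IP : Set (MulAut G)) ∪ {α}), ∀ b ∈ ((IP : Set (MulAut G)) ∪ {α}),
        a * b = b * a := by
      rintro a (ha | ha) b (hb | hb)
      · obtain ⟨x, hx, rfl⟩ := ha
        obtain ⟨y, hy, rfl⟩ := hb
        rw [← map_mul, ← map_mul]
        exact congrArg _ (congrArg Subtype.val (hab.1.comm ⟨x, hx⟩ ⟨y, hy⟩))
      · rw [Set.mem_singleton_iff.mp hb]; exact (hαP a ha).symm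
      · rw [Set.mem_singleton_iff.mp ha]; exact hαP b hb
      · rw [Set.mem_singleton_iff.mp ha, Set.mem_singleton_iff.mp hb]
    have heq : T = Subgroup.closure ((IP : Set (MulAut G)) ∪ {α}) := by
      rw [Subgroup.closure_union, Subgroup.closure_eq, ← Subgroup.zpowers_eq_closure]
    rw [heq]
    exact Subgroup.isMulCommutative_closure hgen
  have hIPI : IP ≤ I := by rintro _ ⟨x, -, rfl⟩; exact ⟨x, rfl⟩
  have hTH : T ≤ H := sup_le (hIPI.trans le_sup_left) le_sup_right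
  have hTp : IsPGroup 2 ↥T := by
    have h1 : IsPGroup 2 ↥(Subgroup.zpowers α) :=
      IsPGroup.of_card (n := j₀) (by rw [Nat.card_zpowers, hj₀])
    exact (P.isPGroup'.map _).to_sup_of_normal_left' h1 (by
      rw [Subgroup.zpowers_le, Subgroup.mem_normalizer_iff]
      intro q
      constructor
      · intro hq
        rwa [hαP q hq, mul_inv_cancel_right]
      · intro hq
        have h := hαP _ hq
        have e : q = α * q * α⁻¹ := by
          calc q = α⁻¹ * (α * q * α⁻¹ * α) := by group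
            _ = α⁻¹ * (α * (α * q * α⁻¹)) := by rw [h]
            _ = α * q * α⁻¹ := by group
        rwa [e])
  -- `T` is a Sylow subgroup of `H`
  obtain ⟨S, hS⟩ := (hTp.comap_of_injective H.subtype H.subtype_injective).exists_le_sylow
  have hST : (S : Subgroup ↥H).map H.subtype = T := by
    apply le_antisymm
    · rintro _ ⟨s, hs, rfl⟩
      obtain ⟨i, ⟨g, rfl⟩, j, hij⟩ := hdec s s.2
      have hi : MulAut.conj g = (s : MulAut G) * (α ^ j)⁻¹ := by rw [hij, mul_inv_cancel_right]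
      have hαS : ∀ j : ℤ, (⟨α ^ j, H.zpow_mem hαH j⟩ : ↥H) ∈ (S : Subgroup ↥H) := fun j => hS (by
        show α ^ j ∈ T
        exact Subgroup.mem_sup_right (Subgroup.zpow_mem _ (Subgroup.mem_zpowers α) j))
      have hgS : MulAut.conj g ∈ (S : Subgroup ↥H).map H.subtype := by
        rw [hi]
        exact ⟨s * (⟨α ^ j, H.zpow_mem hαH j⟩ : ↥H)⁻¹,
          (S : Subgroup ↥H).mul_mem hs (inv_mem (hαS j)), rfl⟩
      have hp : IsPGroup 2 ↥(((S : Subgroup ↥H).map H.subtype).comap (MulAut.conj : G →* MulAut G)) :=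
        (S.isPGroup'.map _).comap_of_injective _ hinj
      have hPle : (P : Subgroup G) ≤
          ((S : Subgroup ↥H).map H.subtype).comap (MulAut.conj : G →* MulAut G) := fun x hx =>
        ⟨⟨MulAut.conj x, le_sup_left (a := I) ⟨x, rfl⟩⟩,
          hS (show MulAut.conj x ∈ T from Subgroup.mem_sup_left ⟨x, hx, rfl⟩), rfl⟩
      have hgP : g ∈ (P : Subgroup G) := (P.3 hp hPle).le hgS
      show (s : MulAut G) ∈ T
      rw [hij]
      exact mul_mem (Subgroup.mem_sup_left ⟨g, hgP, rfl⟩)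
        (Subgroup.mem_sup_right (Subgroup.zpow_mem _ (Subgroup.mem_zpowers α) j))
    · intro t ht
      exact ⟨⟨t, hTH ht⟩, hS ht, rfl⟩
  haveI hScomm : IsMulCommutative ↥(S : Subgroup ↥H) := by
    refine ⟨⟨fun a b => ?_⟩⟩
    apply Subtype.ext
    apply Subtype.ext
    have h := congrArg Subtype.val (hTcomm.1.comm
      ⟨_, hST.le ⟨(a : ↥H), a.2, rfl⟩⟩ ⟨_, hST.le ⟨(b : ↥H), b.2, rfl⟩⟩)
    exact h
  -- a complement of `S` in its normaliser
  set N := Subgroup.normalizer ((S : Subgroup ↥H) : Set ↥H) with hN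
  obtain ⟨K, hK⟩ := Subgroup.exists_right_complement'_of_coprime
    (N := (S : Subgroup ↥H).subgroupOf N) (S.subtype Subgroup.le_normalizer).card_coprime_index
  set K' := K.map N.subtype with hK'
  set J : Subgroup ↥H := IP.subgroupOf H with hJ
  have hJS : ∀ y : ↥H, y ∈ (S : Subgroup ↥H) → (y : MulAut G) ∈ I → y ∈ J := by
    intro y hy hyI
    obtain ⟨g, hg⟩ := hyI
    show (y : MulAut G) ∈ IP
    have hp : IsPGroup 2 ↥(((S : Subgroup ↥H).map H.subtype).comap (MulAut.conj : G →* MulAut G)) :=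
      (S.isPGroup'.map _).comap_of_injective _ hinj
    have hPle : (P : Subgroup G) ≤
        ((S : Subgroup ↥H).map H.subtype).comap (MulAut.conj : G →* MulAut G) := fun x hx =>
      ⟨⟨MulAut.conj x, le_sup_left (a := I) ⟨x, rfl⟩⟩,
        hS (show MulAut.conj x ∈ T from Subgroup.mem_sup_left ⟨x, hx, rfl⟩), rfl⟩
    have hgP : g ∈ (P : Subgroup G) := (P.3 hp hPle).le ⟨y, hy, hg.symm⟩
    exact ⟨g, hgP, hg⟩
  have hJleS : J ≤ (S : Subgroup ↥H) := fun y hy => hS (show (y : MulAut G) ∈ T from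
    Subgroup.mem_sup_left hy)
  have hKN : K' ≤ N := Subgroup.map_subtype_le _
  have hKJ : K' ≤ Subgroup.normalizer (J : Set ↥H) := by
    refine CfsgLib.Coprime.le_normalizer_of_conj_mem fun k hk y hy => ?_
    refine hJS _ ((Subgroup.mem_normalizer_iff.mp (hKN hk) y).mp (hJleS hy)) ?_
    exact hIn.conj_mem _ (hIPI hy) _
  have hSdvd : Nat.card ↥(S : Subgroup ↥H) = Nat.card ↥((S : Subgroup ↥H).subgroupOf N) :=
    (Nat.card_congr (Subgroup.subgroupOfEquivOfLe Subgroup.le_normalizer).toEquiv).symm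
  have hcop : (Nat.card ↥K').Coprime (Nat.card ↥(S : Subgroup ↥H)) := by
    rw [hK', Subgroup.card_map_of_injective N.subtype_injective, hSdvd,
      ← hK.symm.index_eq_card]
    exact (S.subtype Subgroup.le_normalizer).card_coprime_index.symm
  haveI : Fact (Nat.Prime 2) := ⟨Nat.prime_two⟩
  -- an element of `α J` centralised by the complement
  obtain ⟨n, hn, hb⟩ := CfsgLib.Coprime.exists_mul_mem_centralizer (g := (⟨α, hαH⟩ : ↥H)) hKJ
    (hcop.coprime_dvd_right (Subgroup.card_dvd_of_le hJleS))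
    (Or.inr (CfsgLib.Coprime.isSolvable_of_isPGroup (S.isPGroup'.to_le hJleS))) (by
      intro k hk
      refine hJS _ ?_ ?_
      · have hαS : (⟨α, hαH⟩ : ↥H) ∈ (S : Subgroup ↥H) :=
          hS (show α ∈ T from Subgroup.mem_sup_right (Subgroup.mem_zpowers α))
        rw [commutatorElement_def,
          show ∀ a k : ↥H, a * k * a⁻¹ * k⁻¹ = a * (k * a⁻¹ * k⁻¹) from fun a k => by group]
        exact Subgroup.mul_mem _ hαS
          ((Subgroup.mem_normalizer_iff.mp (hKN hk) _).mp (inv_mem hαS))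
      · obtain ⟨i, hi, j, hij⟩ := hdec k (k : ↥H).2
        show α * (k : MulAut G) * α⁻¹ * (k : MulAut G)⁻¹ ∈ I
        rw [hij, show α * (i * α ^ j) * α⁻¹ * (i * α ^ j)⁻¹ = (α * i * α⁻¹) * i⁻¹ by group]
        exact I.mul_mem (hIn.conj_mem i hi α) (inv_mem hi))
  set b : ↥H := n * ⟨α, hαH⟩ with hbdef
  have hbS : b ∈ (S : Subgroup ↥H) := mul_mem (hJleS hn)
    (hS (show α ∈ T from Subgroup.mem_sup_right (Subgroup.mem_zpowers α)))
  have hbcentral : ∀ m ∈ N, m * b = b * m := by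
    intro m hm
    obtain ⟨⟨s, k⟩, hsk⟩ := hK.surjective ⟨m, hm⟩
    have hm' : ((s : ↥N) : ↥H) * ((k : ↥N) : ↥H) = m := congrArg Subtype.val hsk
    rw [← hm']
    have e1 : ((s : ↥N) : ↥H) * b = b * ((s : ↥N) : ↥H) :=
      congrArg Subtype.val (hScomm.1.comm ⟨_, s.2⟩ ⟨b, hbS⟩)
    have e2 : ((k : ↥N) : ↥H) * b = b * ((k : ↥N) : ↥H) :=
      Subgroup.mem_centralizer_iff.mp hb _ ⟨(k : ↥N), k.2, rfl⟩
    rw [mul_assoc, e2, ← mul_assoc, e1, mul_assoc]
  obtain ⟨x, -, hx⟩ : (n : MulAut G) ∈ IP := hn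
  suffices hb1 : b = 1 by
    refine ⟨x⁻¹, fun y => ?_⟩
    have h : MulAut.conj x * α = 1 := by
      rw [hx]; exact congrArg Subtype.val hb1
    rw [eq_inv_of_mul_eq_one_right h, ← map_inv, MulAut.conj_apply]
  by_contra hb1
  -- the involution in `⟨b⟩`
  obtain ⟨k, hk⟩ := IsPGroup.iff_orderOf.mp S.isPGroup' ⟨b, hbS⟩
  rw [Subgroup.orderOf_mk] at hk
  obtain ⟨k, rfl⟩ : ∃ k', k = k' + 1 := Nat.exists_eq_add_one_of_ne_zero fun h => hb1
    (orderOf_eq_one_iff.mp (by rw [hk, h, pow_zero]))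
  set u := b ^ 2 ^ k with hu
  have hu2 : orderOf u = 2 := by
    rw [hu, orderOf_pow' _ (by positivity), hk, Nat.gcd_eq_right (pow_dvd_pow 2 (Nat.le_succ k)),
      pow_succ', Nat.mul_div_cancel _ (by positivity)]
  have huS : u ∈ (S : Subgroup ↥H) := pow_mem hbS _
  have huc : ∀ m ∈ N, m * u = u * m := fun m hm => (Commute.pow_right (hbcentral m hm) _).eq
  have hiso : ∀ g : ↥H, g * u * g⁻¹ ∈ S → g * u * g⁻¹ = u := by
    intro g hg
    have hg' : (g⁻¹)⁻¹ * u * g⁻¹ ∈ (S : Subgroup ↥H) := by rw [inv_inv]; exact hg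
    obtain ⟨m, hm, hmeq⟩ := Sylow.conj_eq_normalizer_conj_of_mem S u g⁻¹ huS hg'
    rw [inv_inv] at hmeq
    rw [hmeq, mul_assoc, ← huc m hm, inv_mul_cancel_left]
  obtain ⟨N₀, hN₀n, hN₀odd, hN₀⟩ := hZ ↥H S u hu2 huS hiso
  have hN₀I : ∀ y ∈ N₀, (y : MulAut G) ∈ I → y = 1 := by
    set cH : G →* ↥H := (MulAut.conj : G →* MulAut G).codRestrict H
      (fun g => le_sup_left (a := I) ⟨g, rfl⟩) with hcH
    have hcinj : Function.Injective cH := fun a b h => hinj (congrArg Subtype.val h)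
    have hM : N₀.comap cH ≤ pPrimeCore 2 G := by
      refine CfsgLib.Constrained.le_pPrimeCore (hN₀n.comap cH) ?_
      have hd : Nat.card ↥(N₀.comap cH) ∣ Nat.card ↥N₀ := by
        rw [← (Subgroup.card_map_of_injective hcinj : Nat.card ↥((N₀.comap cH).map cH) = _)]
        exact Subgroup.card_dvd_of_le (Subgroup.map_comap_le _ _)
      exact Nat.Coprime.coprime_dvd_left hd
        ((Nat.prime_two.coprime_iff_not_dvd.mpr (Nat.not_even_iff_odd.mpr hN₀odd ∘
          even_iff_two_dvd.mpr)).symm)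
    rintro y hy ⟨g, hg⟩
    obtain rfl : cH g = y := Subtype.ext hg
    have hg1 : g ∈ pPrimeCore 2 G := hM (Subgroup.mem_comap.mpr hy)
    rw [hcore, Subgroup.mem_bot] at hg1
    rw [hg1, map_one]
  have hN₀bot : ∀ y ∈ N₀, y = 1 := by
    intro y hy
    -- a power of `y` with exponent a power of two lies in `I`, so is trivial
    obtain ⟨i, hi, j, hij⟩ := hdec y y.2
    have hpI : ((y : MulAut G)) ^ (2 ^ j₀) ∈ I := by
      haveI := hIn
      rw [← QuotientGroup.eq_one_iff, QuotientGroup.mk_pow, hij, QuotientGroup.mk_mul,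
        (QuotientGroup.eq_one_iff i).mpr hi, one_mul, ← QuotientGroup.mk_pow, QuotientGroup.eq_one_iff]
      rw [show (α ^ j) ^ (2 ^ j₀) = 1 by
        rw [← zpow_natCast (α ^ j) (2 ^ j₀), ← zpow_mul, mul_comm, zpow_mul, zpow_natCast, ← hj₀,
          pow_orderOf_eq_one, one_zpow]]
      exact one_mem _
    have h1 : y ^ (2 ^ j₀) = 1 := hN₀I _ (pow_mem hy _) hpI
    refine orderOf_eq_one_iff.mp (Nat.eq_one_of_dvd_coprimes (Nat.Coprime.pow_left j₀
      (Nat.coprime_two_left.mpr hN₀odd)) (orderOf_dvd_of_pow_eq_one h1) ?_)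
    exact N₀.orderOf_dvd_natCard hy
  have hu1 : (u : MulAut G) = 1 := by
    ext y
    have h := hN₀bot _ (hN₀ ⟨MulAut.conj y, le_sup_left (a := I) ⟨y, rfl⟩⟩)
    have h' : (u : MulAut G) * MulAut.conj y * (u : MulAut G)⁻¹ * (MulAut.conj y)⁻¹ = 1 :=
      congrArg Subtype.val h
    rw [hconjα, mul_inv_eq_one] at h'
    exact hinj h'
  have hu1' : u = 1 := Subtype.ext hu1
  rw [hu1', orderOf_one] at hu2
  exact absurd hu2 (by norm_num)

end CfsgLib.ZStarApps
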